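import Cfsg.Agent.H88.ReeCover.Mu
import Cfsg.Agent.H75.ReeCover.Defs
import Cfsg.Agent.H70.F4Mult.RankOne
import Cfsg.Agent.H8.SzCovering
import Cfsg.Agent.H7.SzGen

/-!
The derived Levi subgroup of the class of type B₂ in a twisted group of type F₄ is a Suzuki group, hence the
square of a suitable class covers it.
-/

set_option autoImplicit false
set_option maxRecDepth 100000

open Cfsg.Lie Cfsg.Agent.H46 Cfsg.Agent.H65.Twist Cfsg.Agent.H70.F4Out Cfsg.Agent.H70.F4Mult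
open Cfsg.Agent.H75.ReeCover Cfsg.Agent.H8.SzSub
open scoped Matrix

namespace Cfsg.Agent.H88.ReeCover

open Cfsg.Agent.H7 (SzHyp th)

variable {K : Type*} [Field K] [Fintype K] [CharP K 2] {m : ℕ} (hK : Fintype.card K = 2 ^ (2 * m + 1))

/-- The normal form of the Levi subgroup. -/
def Lset : Set ↥(chevF4.group K) :=
  {g | ∃ x ∈ (TD hK).X1 1, ∃ h ∈ (TD hK).H0,
    g = x * h ∨ ∃ y ∈ (TD hK).X1 1, g = x * h * (TD hK).nS 1 * y}

theorem H0_conj_X1 {h x : ↥(chevF4.group K)} (hh : h ∈ (TD hK).H0) (hx : x ∈ (TD hK).X1 1) :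
    h * x * h⁻¹ ∈ (TD hK).X1 1 := by
  obtain ⟨α, β, hw⟩ := exists_wt_of_mem hK hh
  obtain ⟨t, u, rfl⟩ := mem_X1 hK hx
  rw [hw.2.2]
  exact b2U_X1 hK _ _

theorem lset_mul_X1 {g x : ↥(chevF4.group K)} (hg : g ∈ Lset hK) (hx : x ∈ (TD hK).X1 1) : g * x ∈ Lset hK := by
  obtain ⟨a, ha, h, hh, rfl | ⟨y, hy, rfl⟩⟩ := hg
  · exact ⟨a * (h * x * h⁻¹), mul_mem ha (H0_conj_X1 hK hh hx), h, hh, Or.inl (by group)⟩
  · exact ⟨a, ha, h, hh, Or.inr ⟨y * x, mul_mem hy hx, by group⟩⟩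

theorem lset_mul_n {g : ↥(chevF4.group K)} (hg : g ∈ Lset hK) : g * (TD hK).nS 1 ∈ Lset hK := by
  obtain ⟨a, ha, h, hh, rfl | ⟨y, hy, rfl⟩⟩ := hg
  · exact ⟨a, ha, h, hh, Or.inr ⟨1, one_mem _, by rw [mul_one]⟩⟩
  · by_cases h1 : y = 1
    · exact ⟨a, ha, h, hh, Or.inl (by rw [h1, mul_one, mul_assoc, nS_sq_one hK, mul_one])⟩
    · obtain ⟨u, hu, k, hk, v, hv, e⟩ := rank_one_class hK 1 hy h1
      refine ⟨a * (h * u * h⁻¹), mul_mem ha (H0_conj_X1 hK hh hu), h * k, mul_mem hh hk, Or.inr ⟨v, hv, ?_⟩⟩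
      rw [nS_inv hK] at e
      calc a * h * (TD hK).nS 1 * y * (TD hK).nS 1 = a * h * ((TD hK).nS 1 * y * (TD hK).nS 1) := by group
        _ = _ := by rw [e]; group

theorem L1_sub_lset {g : ↥(chevF4.group K)} (hg : g ∈ L1 hK) : g ∈ Lset hK := by
  have step : ∀ {g b : ↥(chevF4.group K)}, g ∈ Lset hK →
      (b ∈ (TD hK).X1 1 ∨ ∃ x ∈ (TD hK).X1 1, b = (TD hK).nS 1 * x * ((TD hK).nS 1)⁻¹) → g * b ∈ Lset hK := by
    rintro g b hg (hb | ⟨x, hx, rfl⟩)
    · exact lset_mul_X1 hK hg hb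
    · rw [nS_inv hK, ← mul_assoc, ← mul_assoc]
      exact lset_mul_n hK (lset_mul_X1 hK (lset_mul_n hK hg) hx)
  induction hg using Subgroup.closure_induction_right with
  | one => exact ⟨1, one_mem _, 1, one_mem _, Or.inl (mul_one _).symm⟩
  | mul_right a _ b hb ih => exact step ih hb
  | mul_inv_cancel a _ b hb ih =>
    refine step ih ?_
    rcases hb with hb | ⟨x, hx, rfl⟩
    · exact Or.inl (inv_mem hb)
    · exact Or.inr ⟨x⁻¹, inv_mem hx, by group⟩

theorem H0_torus {h : ↥(chevF4.group K)} (hh : h ∈ (TD hK).H0) : ∃ z : Fin chevF4.rank → Kˣ,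
    h = torusE goodF4 z ∧ goodF4.torusVal z 24 = phiU K m (goodF4.torusVal z 33) ∧
    goodF4.torusVal z 25 = phiU K m (goodF4.torusVal z 27) ∧
    Wt hK h (goodF4.torusVal z 24) (goodF4.torusVal z 25) := by
  obtain ⟨z, hz⟩ := goodF4.mem_diagonal.1 (Subgroup.mem_subgroupOf.1 (Subgroup.mem_inf.1 hh).1)
  obtain rfl : h = torusE goodF4 z := Subtype.ext hz
  have hzf := (f4Setup K hK).W_fixed _ (Subgroup.mem_inf.1 hh).2
  have hf := (torus_fixed_f4 hK z).1 hzf
  obtain ⟨α, β, w⟩ := exists_wt_of_mem hK hh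
  have a24 : goodF4.torusVal z 24 = α := Units.ext (by
    have := pairU_injective ((torus_conj_pairU hK hzf 1).symm.trans (w.2.1 1))
    simpa using this)
  have b25 : goodF4.torusVal z 25 = β := Units.ext (by
    have := (b2U_injective ((torus_conj_b2U hK hzf 1 0).symm.trans (w.2.2 1 0))).1
    simpa using this)
  exact ⟨z, rfl, Units.ext hf.1, Units.ext hf.2, a24.symm ▸ b25.symm ▸ w⟩

theorem H0_mem_keep {h : ↥(chevF4.group K)} (hh : h ∈ (TD hK).H0) : h ∈ keepG (K := K) := by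
  obtain ⟨z, rfl, -⟩ := H0_torus hK hh
  exact torus_mem_keep z

theorem X1_mem_keep {x : ↥(chevF4.group K)} (hx : x ∈ (TD hK).X1 1) : x ∈ keepG (K := K) := by
  obtain ⟨t, u, rfl⟩ := mem_X1 hK hx
  exact b2U_mem_keep m t u

theorem nS_keep : (TD hK).nS 1 ∈ keepG (K := K) := nS_mem_keep

theorem L1_le_keep : L1 hK ≤ keepG (K := K) := by
  refine (Subgroup.closure_le _).2 ?_
  rintro g (hg | ⟨x, hx, rfl⟩)
  · exact X1_mem_keep hK hg
  · exact mul_mem (mul_mem (nS_keep hK) (X1_mem_keep hK hx)) (inv_mem (nS_keep hK))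

/-- An element of the Levi subgroup whose block is upper triangular is a product from the Borel subgroup, and
the coordinates are read off the block. -/
theorem lset_upper {g : ↥(chevF4.group K)} (hg : g ∈ Lset hK) (h30 : blkW (mat g) 3 0 = 0)
    (h01 : blkW (mat g) 0 1 = 0) (h13 : blkW (mat g) 1 3 = 0) :
    ∃ z : Fin chevF4.rank → Kˣ, g = torusE goodF4 z ∧ g ∈ (TD hK).H0 ∧
      goodF4.torusVal z 24 = phiU K m (goodF4.torusVal z 33) ∧
      goodF4.torusVal z 25 = phiU K m (goodF4.torusVal z 27) ∧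
      Wt hK g (goodF4.torusVal z 24) (goodF4.torusVal z 25) := by
  obtain ⟨a, ha, h, hh, he⟩ := hg
  obtain ⟨t, u, rfl⟩ := mem_X1 hK ha
  obtain ⟨z, rfl, hz24, hz25, hw⟩ := H0_torus hK hh
  rcases he with rfl | ⟨y, hy, rfl⟩
  · rw [mat_mul, blkW_mul (keeps_torus z), blk_b2U hK, blk_torus] at h01 h13
    simp [Matrix.mul_diagonal, Cfsg.Agent.H7.um] at h01 h13
    subst h01
    simp at h13
    subst h13
    rw [b2U_zero, one_mul]
    exact ⟨z, rfl, hh, hz24, hz25, hw⟩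
  · exfalso
    obtain ⟨t', u', rfl⟩ := mem_X1 hK hy
    rw [mat_mul, mat_mul, mat_mul, blkW_mul (b2U_mem_keep m t' u').1, blkW_mul (nS_keep hK).1,
      blkW_mul (keeps_torus z), show (TD hK).nS 1 = f4N K 1 from rfl, blk_nS, blk_b2U hK, blk_b2U hK,
      blk_torus] at h30
    simp only [Matrix.mul_apply, Fin.sum_univ_four] at h30
    simp [Matrix.diagonal_apply, Cfsg.Agent.H7.um, Cfsg.Agent.H7.wm] at h30

/-- The representation on the Levi subgroup. -/
noncomputable def muL : ↥(L1 hK) →* GL (Fin 4) K := mu.comp (Subgroup.inclusion (L1_le_keep hK))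

theorem muL_injective : Function.Injective (muL hK) := by
  refine (injective_iff_map_eq_one _).2 fun g hg => ?_
  have h1 : blkW (mat (g : ↥(chevF4.group K))) = 1 := by
    have := congrArg Units.val hg
    exact this
  obtain ⟨z, hz, -, h24, h25, hw⟩ := lset_upper hK (L1_sub_lset hK g.2) (by rw [h1]; simp) (by rw [h1]; simp)
    (by rw [h1]; simp)
  rw [hz, blk_torus] at h1
  have h33 : goodF4.torusVal z 33 = 1 := Units.ext (by
    have := congrFun (congrFun h1 3) 3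
    simpa [wRoot] using this)
  have h34 : goodF4.torusVal z 34 = 1 := Units.ext (by
    have := congrFun (congrFun h1 2) 2
    simpa [wRoot] using this)
  have h27 : goodF4.torusVal z 27 = 1 := by rw [← h34, f4_val_sum.1, h33, one_mul]
  rw [h24, h25, h33, h27, map_one] at hw
  exact Subtype.ext hw.eq_one

theorem coe_muL (g : ↥(L1 hK)) :
    (muL hK g : Matrix (Fin 4) (Fin 4) K) = blkW (mat (g : ↥(chevF4.group K))) := rfl

theorem toGL_coe (H : SzHyp K m) (g : Cfsg.Sz K m) :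
    (H.toGLHom g : Matrix (Fin 4) (Fin 4) K) = g.1.1 := rfl

include hK in
theorem toGL_us (H : SzHyp K m) (t u : K) :
    (H.toGLHom (H.us (iterateFrobenius K 2 m t) (iterateFrobenius K 2 m t * t + u)) : Matrix (Fin 4) (Fin 4) K) =
      blkW (mat (b2U K m t u)) := by
  rw [blk_b2U hK]; rfl

include hK in
theorem muL_range (H : SzHyp K m) : (muL hK).range = H.toGLHom.range := by
  have hconj : ∀ t u : K, muL hK ⟨_, conj_mem_L1 hK (b2U_X1 hK t u)⟩ = H.toGLHom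
      (H.ws * H.us (iterateFrobenius K 2 m t) (iterateFrobenius K 2 m t * t + u) * H.ws) := by
    intro t u
    refine Units.ext ?_
    rw [coe_muL, toGL_coe]
    show blkW (mat ((TD hK).nS 1 * b2U K m t u * ((TD hK).nS 1)⁻¹)) = _
    rw [nS_inv hK, mat_mul, mat_mul, blkW_mul (nS_keep hK).1, blkW_mul (b2U_mem_keep m t u).1,
      show (TD hK).nS 1 = f4N K 1 from rfl, blk_nS, ← toGL_us hK H]
    simp only [Subgroup.coe_mul, Matrix.SpecialLinearGroup.coe_mul, toGL_coe]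
    rfl
  have hX : ∀ t u : K, muL hK ⟨_, b2U_mem_L1 hK t u⟩ =
      H.toGLHom (H.us (iterateFrobenius K 2 m t) (iterateFrobenius K 2 m t * t + u)) := fun t u =>
    Units.ext (by rw [coe_muL, toGL_us hK H])
  apply le_antisymm
  · rintro _ ⟨⟨g, hg⟩, rfl⟩
    induction hg using Subgroup.closure_induction with
    | mem y hy =>
      rcases hy with hy | ⟨x, hx, rfl⟩
      · obtain ⟨t, u, rfl⟩ := mem_X1 hK hy
        exact ⟨_, (hX t u).symm⟩
      · obtain ⟨t, u, rfl⟩ := mem_X1 hK hx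
        exact ⟨_, (hconj t u).symm⟩
    | one => exact ⟨1, by rw [map_one]; exact (map_one (muL hK)).symm⟩
    | mul a b ha hb iha ihb =>
      rw [show muL hK ⟨a * b, mul_mem ha hb⟩ = muL hK ⟨a, ha⟩ * muL hK ⟨b, hb⟩ from
        map_mul (muL hK) ⟨a, ha⟩ ⟨b, hb⟩]
      exact mul_mem iha ihb
    | inv a ha iha =>
      rw [show muL hK ⟨a⁻¹, inv_mem ha⟩ = (muL hK ⟨a, ha⟩)⁻¹ from map_inv (muL hK) ⟨a, ha⟩]
      exact inv_mem iha
  · rintro _ ⟨g, rfl⟩
    suffices h : (muL hK).range.comap H.toGLHom = ⊤ from (h.symm ▸ Subgroup.mem_top g : g ∈ _)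
    have hQ : ∀ a b : K, H.us a b ∈ (muL hK).range.comap H.toGLHom := fun a b => by
      refine ⟨⟨_, b2U_mem_L1 hK (iterateFrobenius K 2 (m + 1) a) (b + a * iterateFrobenius K 2 (m + 1) a)⟩, ?_⟩
      rw [hX, (f4_frob hK a).2]
      congr 2
      linear_combination (a * iterateFrobenius K 2 (m + 1) a) * two_zero K
    refine H.eq_top_of_Q_le ?_ ?_
    · rintro _ ⟨a, b, rfl⟩
      exact hQ a b
    · intro hle
      have hw : H.ws * H.us 1 1 * H.ws ∈ (muL hK).range.comap H.toGLHom := by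
        refine ⟨⟨_, conj_mem_L1 hK (b2U_X1 hK 1 0)⟩, ?_⟩
        rw [hconj, map_one, mul_one, add_zero]
      have h1 : (H.ws * H.us 1 1 * H.ws) • Cfsg.Agent.H7.pinf K = Cfsg.Agent.H7.pinf K := hle hw
      rw [mul_smul, mul_smul, H.ws_inf, H.us_zero_pt] at h1
      have h2 := congrArg (H.ws • ·) h1
      rw [← mul_smul, H.ws_mul_self, one_smul, H.ws_inf, ← Cfsg.Agent.H7.pt_zero (m := m)] at h2
      exact one_ne_zero (Cfsg.Agent.H7.pt_inj.1 h2).1

include hK in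
/-- An element of order five of a Suzuki group which is inverted by an involution. -/
theorem exists_real_five (H : SzHyp K m) : ∃ y i : Cfsg.Sz K m, orderOf y = 5 ∧ i * y * i⁻¹ = y⁻¹ := by
  haveI := H.finite_Sz
  haveI := Fintype.ofFinite (Cfsg.Sz K m)
  obtain ⟨xT, fT, xP, fP, xM, fM, z, x, R⟩ := exists_reps H
  haveI : Fact (Nat.Prime 5) := ⟨by norm_num⟩
  have main : ∀ {x₀ f : Cfsg.Sz K m}, TorusData H x₀ f 4 → 5 ∣ Nat.card (Subgroup.centralizer {x₀}) →
      ∃ y i : Cfsg.Sz K m, orderOf y = 5 ∧ i * y * i⁻¹ = y⁻¹ := by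
    intro x₀ f D h5
    obtain ⟨y, hy⟩ := exists_prime_orderOf_dvd_card' (G := Subgroup.centralizer ({x₀} : Set (Cfsg.Sz K m))) 5 h5
    obtain ⟨⟨-, hi1, hii⟩, hiN⟩ := D.invol
    refine ⟨y, f ^ (4 / 2), by rw [Subgroup.orderOf_coe, hy], ?_⟩
    rw [inv_eq_of_mul_eq_one_right hii]
    exact (inverts H D.hx hi1 hii hiN y.2).1
  set p := 2 ^ (2 * m + 1) + 2 ^ (m + 1) + 1 with hp
  set n := 2 ^ (2 * m + 1) - 2 ^ (m + 1) + 1 with hn
  have hle : 2 ^ (m + 1) ≤ 2 ^ (2 * m + 1) := Nat.pow_le_pow_right (by norm_num) (by omega)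
  have hprod : p * n = 4 ^ (2 * m + 1) + 1 := by
    obtain ⟨d, hd⟩ := Nat.exists_eq_add_of_le hle
    have h4 : 4 ^ (2 * m + 1) = 2 ^ (2 * m + 1) * 2 ^ (2 * m + 1) := by
      rw [← Nat.mul_pow]
    have hr : 2 ^ (m + 1) * 2 ^ (m + 1) = 2 * 2 ^ (2 * m + 1) := by ring
    rw [hp, hn, h4, hd, Nat.add_sub_cancel_left]
    rw [hd] at hr
    nlinarith [hr]
  have h5 : 5 ∣ p * n := by
    rw [hprod]
    simpa using (show Odd (2 * m + 1) from ⟨m, rfl⟩).nat_add_dvd_pow_add_pow 4 1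
  rcases (Nat.Prime.dvd_mul (by norm_num)).1 h5 with h | h
  · exact main R.DP (R.eP ▸ h)
  · exact main R.DM (R.eM ▸ h)

include hK in
/-- The square of a class of elements of order five covers the derived Levi subgroup. -/
theorem levi_cover (hm : 1 ≤ m) : ∃ x0 : ↥(chevF4.group K), x0 ∈ L1 hK ∧ x0 ^ 5 = 1 ∧ x0 ≠ 1 ∧
    ∀ l ∈ L1 hK, ∃ u ∈ L1 hK, ∃ v ∈ L1 hK, l = (u * x0 * u⁻¹) * (v * x0 * v⁻¹) := by
  have H : SzHyp K m := SzHyp.of_fintype hm hK
  let e : ↥(L1 hK) ≃* Cfsg.Sz K m :=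
    (MonoidHom.ofInjective (muL_injective hK)).trans
      ((MulEquiv.subgroupCongr (muL_range hK H)).trans (MonoidHom.ofInjective H.toGLHom_injective).symm)
  obtain ⟨y, i, hy, hi⟩ := exists_real_five hK H
  have hy5 : e.symm y ^ 5 = 1 := by rw [← map_pow, ← hy, pow_orderOf_eq_one, map_one]
  refine ⟨(e.symm y : ↥(L1 hK)), (e.symm y).2, congrArg Subtype.val hy5, fun h => ?_, fun l hl => ?_⟩
  · have : y = 1 := by
      rw [← e.apply_symm_apply y, show e.symm y = 1 from Subtype.ext h, map_one]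
    rw [this, orderOf_one] at hy
    norm_num at hy
  · have key : ∃ u v : Cfsg.Sz K m, e ⟨l, hl⟩ = (u * y * u⁻¹) * (v * y * v⁻¹) := by
      by_cases h1 : e ⟨l, hl⟩ = 1
      · exact ⟨1, i, by rw [h1, hi]; group⟩
      · exact exists_pair H y _ (by rw [hy]; norm_num) h1
    obtain ⟨u, v, huv⟩ := key
    refine ⟨(e.symm u : ↥(L1 hK)), (e.symm u).2, (e.symm v : ↥(L1 hK)), (e.symm v).2, ?_⟩
    have := congrArg e.symm huv
    rw [e.symm_apply_apply] at this
    simp only [map_mul, map_inv] at this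
    exact congrArg Subtype.val this

end Cfsg.Agent.H88.ReeCover
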