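import Cfsg.Agent.H70.F4Mult.Roots
import Cfsg.Agent.H70.F4Mult.Weights
import Cfsg.Agent.H7.SzLie

/-!
The four short root vectors of the first grading piece as a representation of the Levi subgroup of the class of
type B₂ of a twisted group of type F₄.
-/

set_option autoImplicit false
set_option maxRecDepth 100000

open Cfsg.Lie Cfsg.Agent.H46 Cfsg.Agent.H65.Twist Cfsg.Agent.H70.F4Out
open scoped Matrix

namespace Cfsg.Agent.H88.ReeCover

variable {K : Type*} [Field K]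

/-- The roots of the piece, from the highest to the lowest. -/
def wRoot : Fin 4 → Fin chevF4.nroots := fun i =>
  ![⟨37, show 37 < 48 by decide⟩, ⟨35, show 35 < 48 by decide⟩,
    ⟨34, show 34 < 48 by decide⟩, ⟨33, show 33 < 48 by decide⟩] i

/-- The indices of the piece. -/
def iW (i : Fin 4) : chevF4.Idx := Sum.inr (wRoot i)

theorem iW_injective : Function.Injective iW := fun i j h =>
  (show ∀ i j : Fin 4, wRoot i = wRoot j → i = j by decide +kernel) i j (Sum.inr_injective h)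

/-- The matrix keeps the span of the piece. -/
def Keeps (M : Matrix chevF4.Idx chevF4.Idx K) : Prop := ∀ i j, i ∉ Set.range iW → M i (iW j) = 0

/-- The block of the piece. -/
def blkW (M : Matrix chevF4.Idx chevF4.Idx K) : Matrix (Fin 4) (Fin 4) K := M.submatrix iW iW

theorem blkW_mul {M N : Matrix chevF4.Idx chevF4.Idx K} (hN : Keeps N) : blkW (M * N) = blkW M * blkW N := by
  ext i j
  simp only [blkW, Matrix.submatrix_apply, Matrix.mul_apply]
  exact (Fintype.sum_of_injective iW iW_injective (fun l => M (iW i) (iW l) * N (iW l) (iW j))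
    (fun k => M (iW i) k * N k (iW j)) (fun k hk => by simp [hN k j hk]) fun l => rfl).symm

theorem keeps_mul {M N : Matrix chevF4.Idx chevF4.Idx K} (hM : Keeps M) (hN : Keeps N) : Keeps (M * N) := by
  intro i j hi
  rw [Matrix.mul_apply]
  refine Finset.sum_eq_zero fun k _ => ?_
  by_cases hk : k ∈ Set.range iW
  · obtain ⟨l, rfl⟩ := hk
    rw [hM i l hi, zero_mul]
  · rw [hN k j hk, mul_zero]

theorem keeps_one : Keeps (1 : Matrix chevF4.Idx chevF4.Idx K) := fun i j hi =>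
  Matrix.one_apply_ne fun e => hi ⟨j, e.symm⟩

theorem blkW_one : blkW (1 : Matrix chevF4.Idx chevF4.Idx K) = 1 := Matrix.submatrix_one _ iW_injective

/-- The table of the negative and positive class on the piece. -/
def entW : ℕ → Fin 4 → List (ℕ × ℕ) := fun r j =>
  if r = 27 then [[], [(37, 1)], [], [(34, 1)]].getD j.val []
  else if r = 25 then [[], [], [(35, 1)], []].getD j.val []
  else if r = 28 then [[], [], [(37, 1)], [(35, 1)]].getD j.val []
  else if r = 30 then [[], [], [], [(37, 1)]].getD j.val []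
  else if r = 20 then [[(35, 1)], [], [(33, 1)], []].getD j.val []
  else if r = 22 then [[], [(34, 1)], [], []].getD j.val []
  else if r = 19 then [[(34, 1)], [(33, 1)], [], []].getD j.val []
  else [[(33, 1)], [], [], []].getD j.val []

theorem ent_chk : ∀ r ∈ [27, 25, 28, 30, 20, 22, 19, 17], ∀ j : Fin 4,
    r < chevF4.nroots ∧ (wRoot j).val ≠ r ∧ (wRoot j).val ≠ chevF4.neg r ∧
    (goodF4.tab.ent r (wRoot j).val).map (fun p => (p.1, p.2.natAbs)) = entW r j := by decide +kernel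

variable [CharP K 2]

theorem intCast_natAbs (z : ℤ) : (z : K) = (z.natAbs : K) := by
  obtain h | h := Int.natAbs_eq z <;> conv_lhs => rw [h]
  · simp
  · simp [CharTwo.neg_eq]

theorem listSum_apply {α β : Type*} [AddCommMonoid β] (L : List (α → β)) (i : α) :
    L.sum i = (L.map fun f => f i).sum := by
  induction L with
  | nil => rfl
  | cons a L ih => rw [List.sum_cons, List.map_cons, List.sum_cons, Pi.add_apply, ih]

theorem col_eq {r : ℕ} (hr : r ∈ [27, 25, 28, 30, 20, 22, 19, 17]) (t : K) (j : Fin 4) (i : chevF4.Idx) :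
    chevF4.x K r t i (iW j) = bvec chevF4 K (chevF4.rank + (wRoot j).val) i +
      (((entW r j).zipIdx.map fun q => ((q.1.2 : ℕ) : K) * t ^ (q.2 + 1) *
        bvec chevF4 K (chevF4.rank + q.1.1) i)).sum := by
  obtain ⟨hlt, h1, h2, he⟩ := ent_chk r hr j
  have hb : bvec chevF4 K (chevF4.rank + (wRoot j).val) = Pi.single (iW j) (1 : K) := by
    funext k
    rw [bvec, Pi.single_apply]
    by_cases h : k = iW j
    · subst h; simp [code, iW]
    · rw [if_neg h, if_neg fun e => h (code_injective chevF4 (e.trans rfl))]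
  have h := congrFun (goodF4.x_mulVec_e hlt t (wRoot j).2 h1 h2) i
  rw [hb, Matrix.mulVec_single_one] at h
  rw [hb]
  refine h.trans ?_
  rw [Pi.add_apply, listSum_apply, List.map_map, ← he, List.zipIdx_map, List.map_map]
  congr 2
  refine List.map_congr_left fun q _ => ?_
  simp [Function.comp, intCast_natAbs q.1.2]

theorem bvec_iW (j l : Fin 4) :
    bvec chevF4 K (chevF4.rank + (wRoot j).val) (iW l) = if l = j then 1 else 0 := by
  simp only [bvec, code, iW, Sum.elim_inr, Nat.add_left_cancel_iff]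
  exact if_congr ⟨fun h => iW_injective (congrArg Sum.inr (Fin.ext h)), fun h => by rw [h]⟩ rfl rfl

theorem keeps_x {r : ℕ} (hr : r ∈ [27, 25, 28, 30, 20, 22, 19, 17]) (t : K) : Keeps (chevF4.x K r t) := by
  intro i j hi
  have hz : ∀ k, k ∈ [37, 35, 34, 33] → bvec chevF4 K (chevF4.rank + k) i = 0 := by
    intro k hk
    rw [bvec, if_neg]
    intro e
    obtain ⟨l, hl⟩ : ∃ l : Fin 4, (wRoot l).val = k := by
      fin_cases hk
      · exact ⟨0, rfl⟩
      · exact ⟨1, rfl⟩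
      · exact ⟨2, rfl⟩
      · exact ⟨3, rfl⟩
    exact hi ⟨l, code_injective chevF4 (by rw [e, iW]; simp [code, hl])⟩
  have key : ∀ r ∈ [27, 25, 28, 30, 20, 22, 19, 17], ∀ j : Fin 4,
      (wRoot j).val ∈ [37, 35, 34, 33] ∧ ∀ q ∈ (entW r j).zipIdx, q.1.1 ∈ [37, 35, 34, 33] := by decide +kernel
  obtain ⟨h1, h2⟩ := key r hr j
  rw [col_eq hr, hz _ h1, zero_add]
  refine List.sum_eq_zero fun a ha => ?_
  obtain ⟨q, hq, rfl⟩ := List.mem_map.1 ha
  rw [hz _ (h2 q hq), mul_zero]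

theorem blk_x (t : K) :
    blkW (chevF4.x K 27 t) = !![1, t, 0, 0; 0, 1, 0, 0; 0, 0, 1, t; 0, 0, 0, 1] ∧
    blkW (chevF4.x K 25 t) = !![1, 0, 0, 0; 0, 1, t, 0; 0, 0, 1, 0; 0, 0, 0, 1] ∧
    blkW (chevF4.x K 28 t) = !![1, 0, t, 0; 0, 1, 0, t; 0, 0, 1, 0; 0, 0, 0, 1] ∧
    blkW (chevF4.x K 30 t) = !![1, 0, 0, t; 0, 1, 0, 0; 0, 0, 1, 0; 0, 0, 0, 1] ∧
    blkW (chevF4.x K 20 t) = !![1, 0, 0, 0; t, 1, 0, 0; 0, 0, 1, 0; 0, 0, t, 1] ∧
    blkW (chevF4.x K 22 t) = !![1, 0, 0, 0; 0, 1, 0, 0; 0, t, 1, 0; 0, 0, 0, 1] ∧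
    blkW (chevF4.x K 19 t) = !![1, 0, 0, 0; 0, 1, 0, 0; t, 0, 1, 0; 0, t, 0, 1] ∧
    blkW (chevF4.x K 17 t) = !![1, 0, 0, 0; 0, 1, 0, 0; 0, 0, 1, 0; t, 0, 0, 1] := by
  have hb : ∀ k (l : Fin 4), bvec chevF4 K (chevF4.rank + k) (iW l) =
      if [37, 35, 34, 33].getD l.val 0 = k then 1 else 0 := by
    intro k l
    simp only [bvec, code, iW, Sum.elim_inr, Nat.add_left_cancel_iff]
    fin_cases l <;> rfl
  refine ⟨?_, ?_, ?_, ?_, ?_, ?_, ?_, ?_⟩ <;>
  · ext i j
    rw [blkW, Matrix.submatrix_apply, col_eq (by simp), bvec_iW]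
    fin_cases i <;> fin_cases j <;> simp [entW, hb, List.zipIdx]

/-- The coefficient matrix of an element. -/
abbrev mat (g : ↥(chevF4.group K)) : Matrix chevF4.Idx chevF4.Idx K := ((g : GL chevF4.Idx K) : Matrix _ _ K)

/-- The elements keeping the span of the piece. -/
def keepG : Subgroup ↥(chevF4.group K) where
  carrier := {g | Keeps (mat g) ∧ Keeps (mat g⁻¹)}
  one_mem' := by simpa [mat] using (keeps_one (K := K))
  mul_mem' := by
    rintro a b ⟨ha, ha'⟩ ⟨hb, hb'⟩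
    refine ⟨?_, ?_⟩
    · simpa [mat] using keeps_mul ha hb
    · simpa [mat, mul_inv_rev] using keeps_mul hb' ha'
  inv_mem' := fun {a} ha => ⟨ha.2, by rw [inv_inv]; exact ha.1⟩

/-- The representation on the piece. -/
noncomputable def mu : ↥(keepG (K := K)) →* GL (Fin 4) K :=
  MonoidHom.toHomUnits
    { toFun := fun g => blkW (mat g.1)
      map_one' := by simpa [mat] using (blkW_one (K := K))
      map_mul' := fun a b => by simpa [mat] using blkW_mul (M := mat a.1) b.2.1 }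

theorem coe_mu (g : ↥(keepG (K := K))) : (mu g : Matrix (Fin 4) (Fin 4) K) = blkW (mat g.1) := rfl

theorem mat_xE (r : ℕ) (t : K) : mat (xE goodF4 r t) = chevF4.x K r t := rfl

theorem mat_mul (a b : ↥(chevF4.group K)) : mat (a * b) = mat a * mat b := rfl

theorem xE_mem_keep {r : ℕ} (hr : r ∈ [27, 25, 28, 30, 20, 22, 19, 17]) (t : K) :
    xE goodF4 r t ∈ keepG (K := K) := by
  refine ⟨keeps_x hr t, ?_⟩
  have h : (xE goodF4 r t)⁻¹ = xE goodF4 r t := inv_eq_of_mul_eq_one_right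
    (by rw [f4_xE_add, CharTwo.add_self_eq_zero]; exact Subtype.ext (by simp [xE, goodF4.xg_zero]))
  rw [h]
  exact keeps_x hr t

theorem b2U_mem_keep (m : ℕ) (t u : K) : b2U K m t u ∈ keepG (K := K) :=
  mul_mem (mul_mem (mul_mem (xE_mem_keep (by simp) _) (xE_mem_keep (by simp) _)) (xE_mem_keep (by simp) _))
    (xE_mem_keep (by simp) _)

theorem b2V_mem_keep (m : ℕ) (t u : K) : b2V K m t u ∈ keepG (K := K) :=
  mul_mem (mul_mem (mul_mem (xE_mem_keep (by simp) _) (xE_mem_keep (by simp) _)) (xE_mem_keep (by simp) _))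
    (xE_mem_keep (by simp) _)

variable [Fintype K] {m : ℕ} (hK : Fintype.card K = 2 ^ (2 * m + 1))

include hK in
theorem th_frob (t : K) : Cfsg.Agent.H7.th m (iterateFrobenius K 2 m t) = t := by
  rw [Cfsg.Agent.H7.th, ← iterateFrobenius_def (p := 2)]
  exact (f4_frob hK t).1

include hK in
theorem blk_b2U (t u : K) : blkW (mat (b2U K m t u)) =
    (Cfsg.Agent.H7.um m (iterateFrobenius K 2 m t) (iterateFrobenius K 2 m t * t + u)).1 := by
  have hk := fun (r : ℕ) (hr : r ∈ [27, 25, 28, 30, 20, 22, 19, 17]) (s : K) => keeps_x hr s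
  show blkW (mat (xE goodF4 27 _ * xE goodF4 25 _ * xE goodF4 28 _ * xE goodF4 30 _)) = _
  rw [mat_mul, mat_mul, mat_mul, mat_xE, mat_xE, mat_xE, mat_xE, blkW_mul (hk 30 (by simp) _),
    blkW_mul (hk 28 (by simp) _), blkW_mul (hk 25 (by simp) _)]
  obtain ⟨h27, -⟩ := blk_x (iterateFrobenius K 2 m t)
  obtain ⟨-, h25, -⟩ := blk_x t
  obtain ⟨-, -, h28, -⟩ := blk_x (iterateFrobenius K 2 m t * t + u)
  obtain ⟨-, -, -, h30, -⟩ := blk_x (iterateFrobenius K 2 (m + 1) u)
  rw [h27, h25, h28, h30]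
  have e1 := th_frob hK t
  have e2 : Cfsg.Agent.H7.th m u = iterateFrobenius K 2 (m + 1) u := by
    rw [Cfsg.Agent.H7.th, iterateFrobenius_def]
  have e3 : Cfsg.Agent.H7.th m (iterateFrobenius K 2 m t * t + u) =
      t * iterateFrobenius K 2 m t ^ 2 + Cfsg.Agent.H7.th m u := by
    simp only [Cfsg.Agent.H7.th, ← iterateFrobenius_def (p := 2), map_add, map_mul]
    rw [(f4_frob hK t).1, f4_psi t]
  simp only [Cfsg.Agent.H7.um, Cfsg.Agent.H7.ov, e1, e3, e2]
  ext i j
  fin_cases i <;> fin_cases j <;> simp [Matrix.mul_apply, Fin.sum_univ_four] <;>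
    grind [two_zero K]

omit [Fintype K] in
theorem blk_nS : blkW (mat (f4N K 1)) = (Cfsg.Agent.H7.wm K).1 := by
  have e : f4N K 1 = b2U K 0 1 0 * b2U K 0 0 1 * b2V K 0 1 0 * b2U K 0 0 1 := by
    apply Subtype.ext
    have h : (wordEl goodF4 f4WordB : GL chevF4.Idx K) = wordEl goodF4 f4WordB' :=
      wordEl_eq goodF4 (p := 2) f4_checkB
    rw [Cfsg.Agent.H70.F4Mult.coe_f4N.2, h]
    simp [wordEl, f4WordB', b2U, b2V, B2Block.word, f4Pos, f4Neg, xE, mul_assoc]
  have hk := fun (r : ℕ) (hr : r ∈ [27, 25, 28, 30, 20, 22, 19, 17]) (s : K) => keeps_x hr s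
  have hU : ∀ t u : K, blkW (mat (b2U K 0 t u)) = blkW (chevF4.x K 27 t) * blkW (chevF4.x K 25 t) *
      blkW (chevF4.x K 28 (t * t + u)) * blkW (chevF4.x K 30 (u ^ 2)) := by
    intro t u
    rw [← blkW_mul (hk 25 (by simp) _), ← blkW_mul (hk 28 (by simp) _), ← blkW_mul (hk 30 (by simp) _),
      ← mat_xE 27, ← mat_xE 25, ← mat_xE 28, ← mat_xE 30, ← mat_mul, ← mat_mul, ← mat_mul]
    simp [b2U, B2Block.word, f4Pos, iterateFrobenius_def, frobenius_def]
  have hV : ∀ t u : K, blkW (mat (b2V K 0 t u)) = blkW (chevF4.x K 20 t) * blkW (chevF4.x K 22 t) *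
      blkW (chevF4.x K 19 (t * t + u)) * blkW (chevF4.x K 17 (u ^ 2)) := by
    intro t u
    rw [← blkW_mul (hk 22 (by simp) _), ← blkW_mul (hk 19 (by simp) _), ← blkW_mul (hk 17 (by simp) _),
      ← mat_xE 20, ← mat_xE 22, ← mat_xE 19, ← mat_xE 17, ← mat_mul, ← mat_mul, ← mat_mul]
    simp [b2V, B2Block.word, f4Neg, iterateFrobenius_def, frobenius_def]
  rw [e, mat_mul, mat_mul, mat_mul, blkW_mul (b2U_mem_keep 0 _ _).1, blkW_mul (b2V_mem_keep 0 _ _).1,
    blkW_mul (b2U_mem_keep 0 _ _).1, hU, hU, hV]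
  simp only [mul_one, zero_add, add_zero, mul_zero, one_pow, zero_pow two_ne_zero]
  obtain ⟨a1, a2, a3, a4, b1, b2, b3, b4⟩ := blk_x (K := K) 1
  obtain ⟨c1, c2, c3, c4, d1, d2, d3, d4⟩ := blk_x (K := K) 0
  rw [a1, a2, a3, a4, b1, b2, b3, c1, c2, c4, d4]
  simp only [Cfsg.Agent.H7.wm]
  ext i j
  fin_cases i <;> fin_cases j <;> simp [Matrix.mul_apply, Fin.sum_univ_four, CharTwo.add_self_eq_zero]

omit [Fintype K] in
theorem nS_mem_keep : f4N K 1 ∈ keepG (K := K) := by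
  have e : f4N K 1 = b2U K 0 1 0 * b2U K 0 0 1 * b2V K 0 1 0 * b2U K 0 0 1 := by
    apply Subtype.ext
    have h : (wordEl goodF4 f4WordB : GL chevF4.Idx K) = wordEl goodF4 f4WordB' :=
      wordEl_eq goodF4 (p := 2) f4_checkB
    rw [Cfsg.Agent.H70.F4Mult.coe_f4N.2, h]
    simp [wordEl, f4WordB', b2U, b2V, B2Block.word, f4Pos, f4Neg, xE, mul_assoc]
  rw [e]
  exact mul_mem (mul_mem (mul_mem (b2U_mem_keep 0 _ _) (b2U_mem_keep 0 _ _)) (b2V_mem_keep 0 _ _))
    (b2U_mem_keep 0 _ _)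

omit [CharP K 2] [Fintype K] in
theorem keeps_torus (z : Fin chevF4.rank → Kˣ) : Keeps (mat (torusE goodF4 z)) := fun i j hi => by
  show (goodF4.torus z : Matrix chevF4.Idx chevF4.Idx K) i (iW j) = 0
  rw [goodF4.coe_torus, rdiag, Matrix.diagonal_apply_ne _ fun e => hi ⟨j, e.symm⟩]

omit [CharP K 2] [Fintype K] in
theorem blk_torus (z : Fin chevF4.rank → Kˣ) :
    blkW (mat (torusE goodF4 z)) = Matrix.diagonal fun i => (goodF4.torusVal z (wRoot i).val : K) := by
  show (goodF4.torus z : Matrix chevF4.Idx chevF4.Idx K).submatrix iW iW = _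
  rw [goodF4.coe_torus, rdiag, Matrix.submatrix_diagonal _ _ iW_injective]
  rfl

omit [Fintype K] in
theorem torus_mem_keep (z : Fin chevF4.rank → Kˣ) : torusE goodF4 z ∈ keepG (K := K) := by
  refine ⟨keeps_torus z, ?_⟩
  have h : (torusE goodF4 z)⁻¹ = torusE goodF4 z⁻¹ := Subtype.ext (by simp [torusE])
  rw [h]
  exact keeps_torus _

end Cfsg.Agent.H88.ReeCover
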